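import Cfsg.Agent.H122.SX.EFrame

/-!
# `E₈(q)`, all `q`: from a good `A₇` part to a product of two conjugates of one element (helper122, S2452)

`cover_of_good` : if a conjugate of `g` is `v * (p8 A * hz z) * u` and the matrix `N = A * diag(1, 1, 1, z, …, z)` is similar
to a matrix with `2 × 2` corner `1` and Schur complement `C ≠ z²`, then `g` is a product of two conjugates of `p7 c`.
-/

set_option autoImplicit false
set_option linter.unusedSectionVars false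

namespace Cfsg.Agent.H122.SX.E127

open CoxeterSystem Cfsg.Agent.ChevalleyStructure.CoxeterGeom Cfsg.Agent.Tits.Roots Cfsg.Agent.Tits.Core
  Cfsg.Agent.Nodes.Reps Cfsg.Agent.Nodes.BNOf Cfsg.Agent.Nodes.RGDLib Cfsg.Agent.Nodes.Bruhat
  Cfsg.Agent.Nodes.OppDec Cfsg.Agent.Nodes.LeviDec Cfsg.Agent.Nodes.KindChev Cfsg.Agent.Nodes.ChevCls
  Cfsg.Agent.OddHalf.NI.ModelChev Cfsg.Agent.Nodes.StabComb
  Cfsg.Agent.H162.GaussDec Cfsg.Agent.H162.GaussLevi Cfsg.Agent.H162.GaussSL Cfsg.Agent.H162.GaussReg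
  Cfsg.Agent.H162.GaussPQ
  Cfsg.Agent.H928.Ore.Frame
open Cfsg.Lie Cfsg.Agent.ChevalleyStructure Cfsg.Agent.ChevalleyStructure.Elts
  Cfsg.Agent.ChevalleyStructure.RootVec Cfsg.Agent.ChevalleyStructure.NPerm
  Cfsg.Agent.ChevalleyStructure.CoxeterGeomTypes Cfsg.Agent.Nodes.RGDChev Cfsg.Agent.KFacts.RgdChevCoord
open Cfsg.Agent.FixBN.FieldRGD (uu vv dd ww)
open Cfsg.Agent.TitsThree.KExcRT Cfsg.Agent.AGraded
open Cfsg.Agent.H78.Pw Cfsg.Agent.H85.Pw Cfsg.Agent.H194.Pw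
open Cfsg.Agent.H150.E6T (le_of_gen)
open Cfsg.Agent.H162.GaussExc (coord act_sg sg_mem)
open Cfsg.Agent.H122.Pw Cfsg.Agent.H122.SX
open scoped MatrixGroups

universe u

/-! ### The corner of the first row and column -/

section corner

variable {K : Type*} [Field K]

theorem col00 {P : Matrix.SpecialLinearGroup (Fin 7) K} (hP : P ∈ ColS K (fun i : Fin 7 => i ≠ 0)) : P.1 0 0 = 1 := by
  have hP' : ∀ j : Fin 7, j ≠ 0 → ∀ i, P.1 i j = (1 : Matrix (Fin 7) (Fin 7) K) i j := hP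
  have h := P.2
  rw [Matrix.det_of_isLowerTriangular P.1 (fun i j hij => by
    have hij' : i < j := hij
    rw [hP' j (by rintro rfl; exact absurd hij' (Fin.not_lt_zero i)) i, Matrix.one_apply_ne hij'.ne]),
    Fin.prod_univ_succ] at h
  have h1 : ∀ i : Fin 6, P.1 i.succ i.succ = 1 := fun i => by
    rw [hP' _ (Fin.succ_ne_zero i), Matrix.one_apply_eq]
  simpa [h1] using h

theorem row00 {Q : Matrix.SpecialLinearGroup (Fin 7) K} (hQ : Q ∈ RowS K (fun i : Fin 7 => i ≠ 0)) : Q.1 0 0 = 1 := by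
  have hQ' : ∀ i : Fin 7, i ≠ 0 → ∀ j, Q.1 i j = (1 : Matrix (Fin 7) (Fin 7) K) i j := hQ
  have h := Q.2
  rw [Matrix.det_of_isUpperTriangular (M := Q.1) (fun i j hij => by
    have hij' : j < i := hij
    rw [hQ' i (by rintro rfl; exact absurd hij' (Fin.not_lt_zero j)) j, Matrix.one_apply_ne hij'.ne']),
    Fin.prod_univ_succ] at h
  have h1 : ∀ i : Fin 6, Q.1 i.succ i.succ = 1 := fun i => by
    rw [hQ' _ (Fin.succ_ne_zero i), Matrix.one_apply_eq]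
  simpa [h1] using h

/-- a scalar product `L * M * U` with `M = diag(z, M')` forces `M' = z` -/
theorem scalar_part {L M U : Matrix.SpecialLinearGroup (Fin 7) K} (hL : L ∈ ColS K (fun i : Fin 7 => i ≠ 0))
    (hU : U ∈ RowS K (fun i : Fin 7 => i ≠ 0)) {z : K} (h0 : M.1 0 0 = z) (h1 : ∀ j : Fin 6, M.1 0 j.succ = 0)
    {a : K} (h : (L * M * U).1 = a • (1 : Matrix (Fin 7) (Fin 7) K))
    (i j : Fin 6) : M.1 i.succ j.succ = z * (1 : Matrix (Fin 6) (Fin 6) K) i j := by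
  have hP := inv_mem hL
  have hQ := inv_mem hU
  have hP0 := col00 hP
  have hQ0 := row00 hQ
  have hP' : ∀ j : Fin 7, j ≠ 0 → ∀ i, (L⁻¹).1 i j = (1 : Matrix (Fin 7) (Fin 7) K) i j := hP
  have hQ' : ∀ i : Fin 7, i ≠ 0 → ∀ j, (U⁻¹).1 i j = (1 : Matrix (Fin 7) (Fin 7) K) i j := hQ
  have hM : M.1 = a • ((L⁻¹).1 * (U⁻¹).1) := by
    have e1 : M = L⁻¹ * (L * M * U) * U⁻¹ := by group
    have e2 : M.1 = (L⁻¹).1 * (L * M * U).1 * (U⁻¹).1 := congrArg Subtype.val e1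
    rw [e2, h, Matrix.mul_smul, Matrix.mul_one, Matrix.smul_mul]
  have hPQ : ∀ i j : Fin 7, ((L⁻¹).1 * (U⁻¹).1) i j = (L⁻¹).1 i 0 * (U⁻¹).1 0 j +
      ∑ k : Fin 6, (1 : Matrix (Fin 7) (Fin 7) K) i k.succ * (1 : Matrix (Fin 7) (Fin 7) K) k.succ j := by
    intro i j
    rw [Matrix.mul_apply, Fin.sum_univ_succ]
    congr 1
    refine Finset.sum_congr rfl fun k _ => ?_
    rw [hP' _ (Fin.succ_ne_zero k), hQ' _ (Fin.succ_ne_zero k)]
  have h00 := congrFun (congrFun hM 0) 0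
  rw [Matrix.smul_apply, hPQ, hP0, hQ0, h0, smul_eq_mul] at h00
  have hs0 : ∀ j : Fin 7, ∑ k : Fin 6, (1 : Matrix (Fin 7) (Fin 7) K) 0 k.succ *
      (1 : Matrix (Fin 7) (Fin 7) K) k.succ j = 0 := fun j =>
    Finset.sum_eq_zero fun k _ => by rw [Matrix.one_apply_ne (Fin.succ_ne_zero k).symm, zero_mul]
  rw [hs0, add_zero, mul_one, mul_one] at h00
  have ha : a ≠ 0 := by
    rintro rfl
    rw [zero_smul] at hM
    have := M.2
    rw [hM, Matrix.det_zero] at this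
    exact zero_ne_one this
  have hr : (U⁻¹).1 0 j.succ = 0 := by
    have e := congrFun (congrFun hM 0) j.succ
    rw [Matrix.smul_apply, hPQ, hP0, hs0, add_zero, one_mul, h1, smul_eq_mul] at e
    exact (mul_eq_zero.1 e.symm).resolve_left ha
  have e := congrFun (congrFun hM i.succ) j.succ
  rw [Matrix.smul_apply, hPQ, hr, mul_zero, zero_add, smul_eq_mul, ← h00] at e
  rw [e]
  congr 1
  rw [Finset.sum_eq_single i]
  · rw [Matrix.one_apply_eq, one_mul, Matrix.one_apply, Matrix.one_apply]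
    simp only [Fin.succ_inj]
  · intro k _ hk
    rw [Matrix.one_apply_ne (fun h => hk (Fin.succ_injective _ h).symm), zero_mul]
  · intro hi
    exact absurd (Finset.mem_univ _) hi

end corner

/-! ### The two blocks -/

section blocks

variable {K : Type u} [Field K]

/-- `diag(1, z, z, z, z, z)` -/
def ez (z : Kˣ) : Fin 6 → K := ![1, z, z, z, z, z]

theorem ez_inv (z : Kˣ) (i : Fin 6) : ez z i * ez z⁻¹ i = 1 := by
  fin_cases i <;> simp [ez]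

theorem ez_mul (z : Kˣ) : Matrix.diagonal (ez z) * Matrix.diagonal (ez z⁻¹) = 1 := by
  rw [Matrix.diagonal_mul_diagonal]
  simp only [ez_inv]
  exact Matrix.diagonal_one

theorem ez_mul' (z : Kˣ) : Matrix.diagonal (ez z⁻¹) * Matrix.diagonal (ez z) = 1 := by
  have h := ez_mul z⁻¹
  rwa [inv_inv] at h

theorem dz_sub (z : Kˣ) : (Matrix.diagonal (dz z)).submatrix e26 e26 =
    Matrix.fromBlocks 1 0 0 (Matrix.diagonal (ez z)) := by
  rw [Matrix.submatrix_diagonal_equiv]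
  have h1 : (dz z ∘ e26) = Sum.elim (fun _ => (1 : K)) (ez z) := by
    funext i
    rcases i with i | i <;> fin_cases i <;> rfl
  rw [h1]
  ext i j
  rcases i with i | i <;> rcases j with j | j <;>
    simp [Matrix.diagonal_apply, Matrix.one_apply]

/-- conjugation by `diag(1, 1 | 1, z, …, z)` -/
def Dzb (z : Kˣ) (S : Matrix.SpecialLinearGroup (Fin 2 ⊕ Fin 6) K) : Matrix.SpecialLinearGroup (Fin 2 ⊕ Fin 6) K :=
  Ri K (Dz z (Re K S))

theorem Dzb_val (z : Kˣ) (S : Matrix.SpecialLinearGroup (Fin 2 ⊕ Fin 6) K) : (Dzb z S).1 =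
    Matrix.fromBlocks 1 0 0 (Matrix.diagonal (ez z)) * S.1 * Matrix.fromBlocks 1 0 0 (Matrix.diagonal (ez z⁻¹)) := by
  change ((Matrix.diagonal (dz z) * (Matrix.reindex e26 e26 S.1) * Matrix.diagonal (dz z⁻¹))).submatrix e26 e26 = _
  rw [← Matrix.submatrix_mul_equiv _ _ e26 e26 e26, ← Matrix.submatrix_mul_equiv _ _ e26 e26 e26, dz_sub, dz_sub]
  congr 2
  rw [Matrix.reindex_apply, Matrix.submatrix_submatrix]
  simp

theorem Ri_Re (A : Matrix.SpecialLinearGroup (Fin 2 ⊕ Fin 6) K) : Ri K (Re K A) = A := by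
  apply Subtype.ext
  change (Matrix.reindex e26 e26 A.1).submatrix e26 e26 = A.1
  rw [Matrix.reindex_apply, Matrix.submatrix_submatrix]
  simp

theorem hz_Ps (z : Kˣ) (S : Matrix.SpecialLinearGroup (Fin 2 ⊕ Fin 6) K) :
    hz z * Ps K S * (hz z)⁻¹ = Ps K (Dzb z S) := by
  rw [Ps, MonoidHom.comp_apply, MonoidHom.comp_apply, hz_p8, Dzb, Re_Ri]

theorem Hz_succ (z : Kˣ) (C : Matrix.SpecialLinearGroup (Fin 6) K) (i j : Fin 6) :
    (emb C * Hz z).1 i.succ j.succ = C.1 i j * (![((z⁻¹ : Kˣ) : K), 1, 1, 1, 1, 1] : Fin 6 → K) j := by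
  change ((emb C).1 * (Hz z).1) i.succ j.succ = _
  rw [Hz_val, Matrix.mul_diagonal, emb_succ]
  rfl

theorem Hz_00 (z : Kˣ) (C : Matrix.SpecialLinearGroup (Fin 6) K) : (emb C * Hz z).1 0 0 = z := by
  change ((emb C).1 * (Hz z).1) 0 0 = _
  rw [Hz_val, Matrix.mul_diagonal, emb_zero_zero, one_mul]
  rfl

theorem Hz_0s (z : Kˣ) (C : Matrix.SpecialLinearGroup (Fin 6) K) (j : Fin 6) : (emb C * Hz z).1 0 j.succ = 0 := by
  change ((emb C).1 * (Hz z).1) 0 j.succ = _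
  rw [Hz_val, Matrix.mul_diagonal, emb_zero_succ, zero_mul]

theorem Hz_s0 (z : Kˣ) (C : Matrix.SpecialLinearGroup (Fin 6) K) (j : Fin 6) : (emb C * Hz z).1 j.succ 0 = 0 := by
  change ((emb C).1 * (Hz z).1) j.succ 0 = _
  rw [Hz_val, Matrix.mul_diagonal, emb_succ_zero, zero_mul]

theorem ez_prod (z : Kˣ) (j : Fin 6) : ez z⁻¹ j * (![((z⁻¹ : Kˣ) : K), 1, 1, 1, 1, 1] : Fin 6 → K) j = (z : K)⁻¹ := by
  fin_cases j <;> simp [ez]

/-- the decomposition -/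
theorem exists_dec {A : Matrix.SpecialLinearGroup (Fin 8) K} {z : Kˣ}
    {S : Matrix.SpecialLinearGroup (Fin 2 ⊕ Fin 6) K} {X : Matrix (Fin 6) (Fin 2) K} {Y : Matrix (Fin 2) (Fin 6) K}
    {C : Matrix (Fin 6) (Fin 6) K}
    (hS : S.1 * (A.1 * Matrix.diagonal (dz z)).submatrix e26 e26 * (S⁻¹).1 =
      Matrix.fromBlocks 1 0 X 1 * Matrix.fromBlocks 1 0 0 C * Matrix.fromBlocks 1 Y 0 1) :
    ∃ (c : Matrix.SpecialLinearGroup (Fin 6) K) (Y' : Matrix (Fin 2) (Fin 6) K),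
      c.1 = C * Matrix.diagonal (ez z⁻¹) ∧ S * Ri K A * Dzb z S⁻¹ = low X * dR c * up Y' := by
  have e1 : (S * Ri K A * Dzb z S⁻¹).1 = Matrix.fromBlocks 1 0 X 1 *
      Matrix.fromBlocks 1 0 0 (C * Matrix.diagonal (ez z⁻¹)) * Matrix.fromBlocks 1 (Y * Matrix.diagonal (ez z⁻¹)) 0 1 := by
    have e2 : (A.1 * Matrix.diagonal (dz z)).submatrix e26 e26 = (Ri K A).1 *
        Matrix.fromBlocks 1 0 0 (Matrix.diagonal (ez z)) := by
      rw [← Matrix.submatrix_mul_equiv _ _ e26 e26 e26, dz_sub]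
      rfl
    rw [e2] at hS
    change S.1 * (Ri K A).1 * (Dzb z S⁻¹).1 = _
    rw [Dzb_val]
    calc S.1 * (Ri K A).1 * (Matrix.fromBlocks 1 0 0 (Matrix.diagonal (ez z)) * (S⁻¹).1 *
          Matrix.fromBlocks 1 0 0 (Matrix.diagonal (ez z⁻¹))) =
        (S.1 * ((Ri K A).1 * Matrix.fromBlocks 1 0 0 (Matrix.diagonal (ez z))) * (S⁻¹).1) *
          Matrix.fromBlocks 1 0 0 (Matrix.diagonal (ez z⁻¹)) := by simp only [Matrix.mul_assoc]
      _ = _ := by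
        rw [hS]
        simp only [Matrix.fromBlocks_multiply]
        simp
        rw [Matrix.add_mul, Matrix.mul_assoc]
  have hdet : (C * Matrix.diagonal (ez z⁻¹)).det = 1 := by
    have h2 := (S * Ri K A * Dzb z S⁻¹).2
    rw [e1, Matrix.det_mul, Matrix.det_mul, Matrix.det_fromBlocks_zero₂₁, Matrix.det_fromBlocks_zero₂₁,
      Matrix.det_fromBlocks_zero₁₂, Matrix.det_one, Matrix.det_one] at h2
    simp only [mul_one, one_mul] at h2
    exact h2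
  exact ⟨⟨_, hdet⟩, _, rfl, Subtype.ext e1⟩

end blocks

/-! ### The cover -/

variable {K : Type u} [Field K] [Finite K]

/-- **From a good `A₇` part to a product of two conjugates.** -/
theorem cover_of_good {g x v u : ↥(chevE8.group K)} {A : Matrix.SpecialLinearGroup (Fin 8) K} {z : Kˣ}
    (hv : v ∈ VNJ cs8 hp8.isCartan (XX chevE8 8 K) {k | k ∈ J7})
    (hu : u ∈ VJ cs8 hp8.isCartan (XX chevE8 8 K) {k | k ∈ J7})
    (e : x * g * x⁻¹ = v * (p8 K A * hz z) * u)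
    {S : Matrix.SpecialLinearGroup (Fin 2 ⊕ Fin 6) K} {X : Matrix (Fin 6) (Fin 2) K} {Y : Matrix (Fin 2) (Fin 6) K}
    {C : Matrix (Fin 6) (Fin 6) K}
    (hS : S.1 * (A.1 * Matrix.diagonal (dz z)).submatrix e26 e26 * (S⁻¹).1 =
      Matrix.fromBlocks 1 0 X 1 * Matrix.fromBlocks 1 0 0 C * Matrix.fromBlocks 1 Y 0 1)
    (hC : C ≠ ((z : K) ^ 2) • (1 : Matrix (Fin 6) (Fin 6) K))
    {c : Matrix.SpecialLinearGroup (Fin 7) K}
    (hcc : ∀ B : Matrix.SpecialLinearGroup (Fin 7) K, (∀ a : K, B.1 ≠ a • (1 : Matrix (Fin 7) (Fin 7) K)) →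
      ∃ g h, B = (g * c * g⁻¹) * (h * c * h⁻¹))
    (n1 : NF (VJ cs8 hp8.isCartan (XX chevE8 8 K) {k | k ∈ J6}) (p7 K c))
    (n2 : NF (VNJ cs8 hp8.isCartan (XX chevE8 8 K) {k | k ∈ J6}) (p7 K c)) :
    ∃ u v : ↥(chevE8.group K), g = (u * p7 K c * u⁻¹) * (v * p7 K c * v⁻¹) := by
  obtain ⟨p, hpc⟩ := CharP.exists K
  have : Fact p.Prime := ⟨(CharP.char_is_prime_or_zero K p).resolve_right (CharP.char_ne_zero_of_finite K p)⟩
  have := finite_W hp8 cs8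
  have : Nonempty (Fin 8) := ⟨0⟩
  have R := rgd (K := K) hp8 cs8 p
  have hnf : ∀ g, NF (VJ cs8 hp8.isCartan (XX chevE8 8 K) {k | k ∈ J6}) (p7 K (g * c * g⁻¹)) ∧
      NF (VNJ cs8 hp8.isCartan (XX chevE8 8 K) {k | k ∈ J6}) (p7 K (g * c * g⁻¹)) := by
    intro g
    rw [map_mul, map_mul, map_inv]
    exact ⟨Cfsg.Agent.H928.Ore.Fix.NF.conj (LJ_le_normalizer_VJ R _ (p7_mem K g)) n1,
      Cfsg.Agent.H928.Ore.Fix.NF.conj (LJ_le_normalizer_VNJ R _ (p7_mem K g)) n2⟩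
  obtain ⟨d, Y', hd, hdec⟩ := exists_dec hS
  obtain ⟨s, hs⟩ : ∃ s, s = Ps K S := ⟨_, rfl⟩
  have hsL : s ∈ LJ cs8 hp8.isCartan (TT chevE8 K) (XX chevE8 8 K) {k | k ∈ J7} := by
    rw [hs]; exact (pc7 K).mem _
  obtain ⟨z', hz'⟩ : ∃ z', z' = Ps K (low X) := ⟨_, rfl⟩
  obtain ⟨y', hy'⟩ : ∃ y', y' = (p7 K (Hz z))⁻¹ * Ps K (up Y') * p7 K (Hz z) := ⟨_, rfl⟩
  have hM : s * (p8 K A * hz z) * s⁻¹ = z' * p7 K (emb d * Hz z) * y' := by
    have h1 : p8 K A = Ps K (Ri K A) := by rw [Ps, MonoidHom.comp_apply, Re_Ri]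
    have h2 : s * (p8 K A * hz z) * s⁻¹ = Ps K (S * Ri K A * Dzb z S⁻¹) * hz z := by
      rw [map_mul, map_mul, ← hz_Ps, map_inv, ← hs, ← h1]
      group
    rw [h2, hdec, map_mul, map_mul, Ps_dR', ← p7_Hz, map_mul, hz', hy']
    group
  have hzm : z' ∈ VNJ cs8 hp8.isCartan (XX chevE8 8 K) {k | k ∈ J6} := by rw [hz']; exact Ps_low K X
  have hym : y' ∈ VJ cs8 hp8.isCartan (XX chevE8 8 K) {k | k ∈ J6} := by
    have h1 := (Subgroup.mem_normalizer_iff.1 (LJ_le_normalizer_VJ R _ (inv_mem (p7_mem K (Hz z)))) _).1 (Ps_up K Y')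
    rw [inv_inv] at h1
    rw [hy']
    exact h1
  have hv1 : s * v * s⁻¹ ∈ VNJ cs8 hp8.isCartan (XX chevE8 8 K) {k | k ∈ J7} :=
    (Subgroup.mem_normalizer_iff.1 (LJ_le_normalizer_VNJ R _ hsL) v).1 hv
  have hu1 : s * u * s⁻¹ ∈ VJ cs8 hp8.isCartan (XX chevE8 8 K) {k | k ∈ J7} :=
    (Subgroup.mem_normalizer_iff.1 (LJ_le_normalizer_VJ R _ hsL) u).1 hu
  have hrow : (RowS K (fun i : Fin 7 => i ≠ 0)).map (p7 K) ≤
      LJ cs8 hp8.isCartan (TT chevE8 K) (XX chevE8 8 K) {k | k ∈ J6} := by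
    rintro _ ⟨A, -, rfl⟩
    exact p7_mem K A
  have hcol : (ColS K (fun i : Fin 7 => i ≠ 0)).map (p7 K) ≤
      LJ cs8 hp8.isCartan (TT chevE8 K) (XX chevE8 8 K) {k | k ∈ J6} := by
    rintro _ ⟨A, -, rfl⟩
    exact p7_mem K A
  obtain ⟨w, hw, _, ⟨A1, hA1, rfl⟩, ew⟩ : ∃ w ∈ VNJ cs8 hp8.isCartan (XX chevE8 8 K) {k | k ∈ J6},
      ∃ l ∈ (ColS K (fun i : Fin 7 => i ≠ 0)).map (p7 K), s * v * s⁻¹ = w * l := by
    have h1 : s * v * s⁻¹ ∈ ((VNJ cs8 hp8.isCartan (XX chevE8 8 K) {k | k ∈ J6} ⊔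
      (ColS K (fun i : Fin 7 => i ≠ 0)).map (p7 K) : Subgroup _) : Set _) := VN6_le' K hv1
    rw [Subgroup.coe_mul_of_right_le_normalizer_left _ _ (le_trans hcol (LJ_le_normalizer_VNJ R _)), Set.mem_mul] at h1
    obtain ⟨w, hw, l, hl, e⟩ := h1
    exact ⟨w, hw, l, hl, e.symm⟩
  obtain ⟨_, ⟨A3, hA3, rfl⟩, w', hw', ew'⟩ : ∃ l ∈ (RowS K (fun i : Fin 7 => i ≠ 0)).map (p7 K),
      ∃ w ∈ VJ cs8 hp8.isCartan (XX chevE8 8 K) {k | k ∈ J6}, s * u * s⁻¹ = l * w := by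
    have h1 : s * u * s⁻¹ ∈ (((RowS K (fun i : Fin 7 => i ≠ 0)).map (p7 K) ⊔
      VJ cs8 hp8.isCartan (XX chevE8 8 K) {k | k ∈ J6} : Subgroup _) : Set _) := V6_le' K hu1
    rw [Subgroup.coe_mul_of_left_le_normalizer_right _ _ (le_trans hrow (LJ_le_normalizer_VJ R _)), Set.mem_mul] at h1
    obtain ⟨l, hl, w, hw, e⟩ := h1
    exact ⟨l, hl, w, hw, e.symm⟩
  have hvv : w * (p7 K A1 * z' * (p7 K A1)⁻¹) ∈ VNJ cs8 hp8.isCartan (XX chevE8 8 K) {k | k ∈ J6} :=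
    mul_mem hw ((Subgroup.mem_normalizer_iff.1 (LJ_le_normalizer_VNJ R _ (p7_mem K A1)) z').1 hzm)
  have huu : (p7 K A3)⁻¹ * y' * p7 K A3 * w' ∈ VJ cs8 hp8.isCartan (XX chevE8 8 K) {k | k ∈ J6} := by
    refine mul_mem ?_ hw'
    have h1 := (Subgroup.mem_normalizer_iff.1 (LJ_le_normalizer_VJ R _ (inv_mem (p7_mem K A3))) y').1 hym
    rwa [inv_inv] at h1
  have etot : (s * x) * g * (s * x)⁻¹ = w * (p7 K A1 * z' * (p7 K A1)⁻¹) * p7 K (A1 * (emb d * Hz z) * A3) *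
      ((p7 K A3)⁻¹ * y' * p7 K A3 * w') := by
    have h1 : p7 K (A1 * (emb d * Hz z) * A3) = p7 K A1 * p7 K (emb d * Hz z) * p7 K A3 := by
      rw [map_mul, map_mul]
    rw [h1]
    calc (s * x) * g * (s * x)⁻¹ = s * (x * g * x⁻¹) * s⁻¹ := by group
      _ = (s * v * s⁻¹) * (s * (p8 K A * hz z) * s⁻¹) * (s * u * s⁻¹) := by rw [e]; group
      _ = w * p7 K A1 * (z' * p7 K (emb d * Hz z) * y') * (p7 K A3 * w') := by rw [ew, ew', hM]
      _ = _ := by group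
  have hns : ∀ a : K, (A1 * (emb d * Hz z) * A3).1 ≠ a • (1 : Matrix (Fin 7) (Fin 7) K) := by
    intro a ha
    refine hC ?_
    ext i j
    have h1 := scalar_part hA1 hA3 (Hz_00 z d) (Hz_0s z d) ha i j
    rw [Hz_succ, hd, Matrix.mul_diagonal, mul_assoc, ez_prod] at h1
    rw [Matrix.smul_apply, smul_eq_mul, pow_two, mul_assoc, ← h1]
    have hz0 : (z : K) ≠ 0 := z.ne_zero
    field_simp
  obtain ⟨g₁, g₂, e0⟩ := hcc _ hns
  have hm1 := p7_mem K (g₁ * c * g₁⁻¹)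
  have hm2 := p7_mem K (g₂ * c * g₂⁻¹)
  rw [e0, map_mul] at etot
  obtain ⟨a, ha, e1⟩ := exists_conj_of_fix R (LJ_le_normalizer_VNJ R _ hm1) (hnf g₁).2 hvv
  have huP' : p7 K (g₂ * c * g₂⁻¹) * ((p7 K A3)⁻¹ * y' * p7 K A3 * w') * (p7 K (g₂ * c * g₂⁻¹))⁻¹ ∈
      VJ cs8 hp8.isCartan (XX chevE8 8 K) {k | k ∈ J6} :=
    (Subgroup.mem_normalizer_iff.1 (LJ_le_normalizer_VJ R _ hm2) _).1 huu
  obtain ⟨b, hb, e2⟩ := exists_conj_of_fix R (LJ_le_normalizer_VJ R _ hm2) (hnf g₂).1 huP'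
  have e3 : (s * x) * g * (s * x)⁻¹ = (a * p7 K (g₁ * c * g₁⁻¹) * a⁻¹) * (b * p7 K (g₂ * c * g₂⁻¹) * b⁻¹) := by
    rw [etot, ← e1, ← e2]
    group
  refine ⟨(s * x)⁻¹ * a * p7 K g₁, (s * x)⁻¹ * b * p7 K g₂, ?_⟩
  calc g = (s * x)⁻¹ * ((s * x) * g * (s * x)⁻¹) * (s * x) := by group
    _ = _ := by rw [e3]; simp only [map_mul, map_inv]; group

end Cfsg.Agent.H122.SX.E127
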